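import Cfsg.Agent.Chars.Basic.ClassSum

/-!
# Ordinary characters: codegrees
-/

set_option linter.style.haveILetI false

namespace CfsgLib.Chars

open Cfsg

universe u

variable {G : Type u} [Group G] [Finite G]

/-- The codegree, as written in the statements, is the index of the kernel over the degree. -/
theorem codegree_eq (χ : IrrCharacter G) :
    Nat.card G / (Nat.card {g : G // (χ : G → ℂ) g = (χ : G → ℂ) 1} * charDegree (χ : G → ℂ)) =
      (charKer (χ : G → ℂ)).index / charDegree (χ : G → ℂ) := by
  rw [natCard_eq_map_one (isCharacter_coe χ), ← (charKer (χ : G → ℂ)).card_mul_index,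
    Nat.mul_div_mul_left _ _ Nat.card_pos]

theorem codegree_mul_charDegree (χ : IrrCharacter G) :
    Nat.card G / (Nat.card {g : G // (χ : G → ℂ) g = (χ : G → ℂ) 1} * charDegree (χ : G → ℂ)) *
      charDegree (χ : G → ℂ) = (charKer (χ : G → ℂ)).index := by
  rw [codegree_eq, Nat.div_mul_cancel (charDegree_dvd_index_charKer χ)]

theorem codegree_dvd_card (χ : IrrCharacter G) :
    Nat.card G / (Nat.card {g : G // (χ : G → ℂ) g = (χ : G → ℂ) 1} * charDegree (χ : G → ℂ)) ∣
      Nat.card G :=
  Nat.div_dvd_of_dvd (card_eq_mul_charKer_mul_charDegree χ)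

/-- If a prime divides the order of a normal subgroup `N` but not the index, some irreducible
character nontrivial on `N` has degree prime to it; more generally this holds whenever the
prime divides the group order but not the index of `N`. -/
theorem exists_not_dvd_charDegree_of_not_dvd_index (N : Subgroup G) [N.Normal] {p : ℕ}
    (hp : p ∣ Nat.card G) (hN : ¬ p ∣ N.index) :
    ∃ χ : IrrCharacter G, ¬ N ≤ charKer (χ : G → ℂ) ∧ ¬ p ∣ charDegree (χ : G → ℂ) := by
  classical
  by_contra! h
  apply hN
  rw [← sum_charDegree_sq (G := G), ← Finset.sum_filter_add_sum_filter_not Finset.univ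
    (fun χ : IrrCharacter G => N ≤ charKer (χ : G → ℂ)), sum_charDegree_sq_of_le_charKer] at hp
  exact (Nat.dvd_add_iff_left (Finset.dvd_sum fun χ hχ =>
    dvd_pow (h χ (Finset.mem_filter.mp hχ).2) two_ne_zero)).mpr hp

end CfsgLib.Chars
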